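import Cfsg.Agent.H921.Co3.Glue7
import Cfsg.Agent.H127.Co3.Glue8
import Cfsg.Agent.H167.Co3.X0E7

/-!
# S1920, `E₇(q)`, GLUE7: the numbers `Num7` from the 133-dimensional module (helper921)

* `half` : `N² = 1`, `N` conjugate to `N Z`: `ker (N + 1)` meets `ker (Z + 1)` in half of it;
* `num7_of` : `Num7` for `m g = dim ker (ρ g + 1)` from the dimension of `ker (ρ g + 1) ⊓ ker (ρ z - 1)`;
* `num7_E7` : the case of `chevE7.group F`.
-/

set_option autoImplicit false

namespace Cfsg.Agent.H921.Co3.Glue7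

open Module
open Cfsg.Agent.H921.Co3.Sim
open Cfsg.Agent.H127.Co3 (mem_kp mem_km split fr_eq ker_four)

section Lin

variable {F L : Type*} [Field F] [AddCommGroup L] [Module F L] [FiniteDimensional F L]

/-- the (-1)-eigenspace of `N`, split by `Z` -/
theorem split_Z (h2 : (2 : F) ≠ 0) {N Z : Module.End F L} (hZ : Z * Z = 1) (hNZ : N * Z = Z * N) :
    finrank F ↥(LinearMap.ker (N + 1)) = finrank F ↥(LinearMap.ker (N + 1) ⊓ LinearMap.ker (Z - 1)) +
      finrank F ↥(LinearMap.ker (N + 1) ⊓ LinearMap.ker (Z + 1)) := by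
  have hZ' : ∀ v, Z (Z v) = v := fun v => by rw [← Module.End.mul_apply, hZ, Module.End.one_apply]
  have hNZ' : ∀ v, N (Z v) = Z (N v) := fun v => by rw [← Module.End.mul_apply, hNZ, Module.End.mul_apply]
  refine split h2 Z hZ' ?_ ?_ ?_
  · intro v hv
    rw [mem_kp] at hv ⊢
    rw [hNZ', hv, map_neg]
  · intro v
    rw [Submodule.mem_inf, mem_km]
  · intro v
    rw [Submodule.mem_inf, mem_kp (N := Z)]

/-- **the half** -/
theorem half (h2 : (2 : F) ≠ 0) {N Z K K' : Module.End F L} (hN : N * N = 1) (hZ : Z * Z = 1) (hNZ : N * Z = Z * N)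
    (hK : K' * K = 1) (hK' : K * K' = 1) (hc : K * N = N * Z * K) :
    2 * finrank F ↥(LinearMap.ker (N + 1)) =
      2 * finrank F ↥(LinearMap.ker (N + 1) ⊓ LinearMap.ker (Z - 1)) + finrank F ↥(LinearMap.ker (Z + 1)) := by
  have hN' : ∀ v, N (N v) = v := fun v => by rw [← Module.End.mul_apply, hN, Module.End.one_apply]
  have hNZ' : ∀ v, N (Z v) = Z (N v) := fun v => by rw [← Module.End.mul_apply, hNZ, Module.End.mul_apply]
  have e1 := split_Z h2 hZ hNZ
  have e2 := split_Z h2 (N := N * Z) hZ (by rw [mul_assoc, hZ, mul_one, hNZ, ← mul_assoc, hZ, one_mul])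
  have e3 : finrank F ↥(LinearMap.ker (Z + 1)) = finrank F ↥(LinearMap.ker (N - 1) ⊓ LinearMap.ker (Z + 1)) +
      finrank F ↥(LinearMap.ker (N + 1) ⊓ LinearMap.ker (Z + 1)) := by
    refine split h2 N hN' ?_ ?_ ?_
    · intro v hv
      rw [mem_kp] at hv ⊢
      rw [← hNZ', hv, map_neg]
    · intro v
      rw [Submodule.mem_inf, mem_km, and_comm]
    · intro v
      rw [Submodule.mem_inf, mem_kp (N := N), and_comm]
  have e4 : finrank F ↥(LinearMap.ker (N * Z + 1)) = finrank F ↥(LinearMap.ker (N + 1)) := by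
    refine le_antisymm ?_ ?_
    · refine LinearMap.finrank_le_finrank_of_injective (f := K'.restrict fun v hv => ?_) ?_
      · rw [mem_kp] at hv ⊢
        have h3 : N * K' = K' * (N * Z) := by
          calc N * K' = K' * K * N * K' := by rw [hK, one_mul]
            _ = K' * (K * N) * K' := by rw [mul_assoc K' K N]
            _ = K' * (N * Z * K) * K' := by rw [hc]
            _ = K' * (N * Z) * (K * K') := by simp only [mul_assoc]
            _ = K' * (N * Z) := by rw [hK', mul_one]
        have h4 : N (K' v) = K' ((N * Z) v) := by rw [← Module.End.mul_apply, h3, Module.End.mul_apply]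
        rw [h4, hv, map_neg]
      · intro v w h
        have h1 := congrArg (fun x : ↥(LinearMap.ker (N + 1)) => K (x : L)) h
        change K (K' (v : L)) = K (K' (w : L)) at h1
        rw [← Module.End.mul_apply, ← Module.End.mul_apply, hK', Module.End.one_apply, Module.End.one_apply] at h1
        exact Subtype.ext h1
    · refine LinearMap.finrank_le_finrank_of_injective (f := K.restrict fun v hv => ?_) ?_
      · rw [mem_kp] at hv ⊢
        have h4 : (N * Z) (K v) = K (N v) := by rw [← Module.End.mul_apply, ← hc, Module.End.mul_apply]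
        rw [h4, hv, map_neg]
      · intro v w h
        have h1 := congrArg (fun x : ↥(LinearMap.ker (N * Z + 1)) => K' (x : L)) h
        change K' (K (v : L)) = K' (K (w : L)) at h1
        rw [← Module.End.mul_apply, ← Module.End.mul_apply, hK, Module.End.one_apply, Module.End.one_apply] at h1
        exact Subtype.ext h1
  have e5 : LinearMap.ker (N * Z + 1) ⊓ LinearMap.ker (Z - 1) = LinearMap.ker (N + 1) ⊓ LinearMap.ker (Z - 1) := by
    ext v
    rw [Submodule.mem_inf, Submodule.mem_inf, mem_kp, mem_kp, mem_km]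
    constructor
    · rintro ⟨h3, h4⟩
      rw [Module.End.mul_apply, h4] at h3
      exact ⟨h3, h4⟩
    · rintro ⟨h3, h4⟩
      rw [Module.End.mul_apply, h4]
      exact ⟨h3, rfl⟩
  have e6 : LinearMap.ker (N * Z + 1) ⊓ LinearMap.ker (Z + 1) = LinearMap.ker (N - 1) ⊓ LinearMap.ker (Z + 1) := by
    ext v
    rw [Submodule.mem_inf, Submodule.mem_inf, mem_kp, mem_km, mem_kp]
    constructor
    · rintro ⟨h3, h4⟩
      rw [Module.End.mul_apply, h4, map_neg, neg_inj] at h3
      exact ⟨h3, h4⟩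
    · rintro ⟨h3, h4⟩
      rw [Module.End.mul_apply, h4, map_neg, h3]
      exact ⟨rfl, rfl⟩
  rw [e4, e5, e6] at e2
  omega

end Lin

variable {G F V L : Type*} [Group G] [Field F] [AddCommGroup V] [Module F V] [AddCommGroup L] [Module F L]
  [FiniteDimensional F L] {z : G} {B : LinearMap.BilinForm F V}
  {R : G → Matrix (Fin 2) (Fin 2) F → Module.End F V → Prop}

/-- **the numbers** -/
theorem num7_of (ρ : G →* Module.End F L) (h2 : (2 : F) ≠ 0) (hzz : z * z = 1)
    (hz : finrank F ↥(LinearMap.ker (ρ z + 1)) = 64)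
    (hm2 : ∀ g, g * g = 1 → g ≠ 1 → finrank F ↥(LinearMap.ker (ρ g + 1)) = 54 ∨
      finrank F ↥(LinearMap.ker (ρ g + 1)) = 64 ∨ finrank F ↥(LinearMap.ker (ρ g + 1)) = 70)
    (hm4 : ∀ g, g * g = z → finrank F ↥(LinearMap.ker (ρ g + 1)) ≠ 38)
    (hcz : ∀ {g a M}, R g a M → g * z = z * g)
    (hR : ∀ {g a M}, R g a M → (g * g = 1 ∨ g * g = z) →
      finrank F ↥(LinearMap.ker (ρ g + 1) ⊓ LinearMap.ker (ρ z - 1)) = finrank F (adS a) + finrank F (adB B M)) :
    Num7 z B R (fun g => finrank F ↥(LinearMap.ker (ρ g + 1))) := by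
  refine ⟨hm2, hm4, ?_, ?_⟩
  · rintro g a M h hg ⟨k, hk⟩
    have h1 := half h2 (N := ρ g) (Z := ρ z) (K := ρ k) (K' := ρ k⁻¹) (by rw [← map_mul, hg, map_one])
      (by rw [← map_mul, hzz, map_one]) (by rw [← map_mul, hcz h, map_mul])
      (by rw [← map_mul, inv_mul_cancel, map_one]) (by rw [← map_mul, mul_inv_cancel, map_one])
      (by rw [← map_mul, ← map_mul, ← map_mul, ← hk, inv_mul_cancel_right])
    rw [hz, hR h (Or.inl hg)] at h1
    show finrank F ↥(LinearMap.ker (ρ g + 1)) = _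
    omega
  · intro g a M h hg
    have h1 := ker_four (N := ρ g) (Z := ρ z) (by rw [← map_mul, hg])
    show finrank F ↥(LinearMap.ker (ρ g + 1)) = _
    rw [← h1]
    exact hR h (Or.inr hg)

open Cfsg.Lie in
/-- **GLUE7 for `E₇(q)`** -/
theorem num7_E7 {F : Type} [Field F] [Fintype F] {V : Type*} [AddCommGroup V] [Module F V]
    (ho : Odd (Fintype.card F)) {B : LinearMap.BilinForm F V} {z : ↥(chevE7.group F)}
    {R : ↥(chevE7.group F) → Matrix (Fin 2) (Fin 2) F → Module.End F V → Prop} (hzz : z * z = 1)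
    (hz : finrank F ↥(LinearMap.ker (H392.KKL.rho chevE7 F z + 1)) = 64)
    (hcz : ∀ {g a M}, R g a M → g * z = z * g)
    (hR : ∀ {g a M}, R g a M → (g * g = 1 ∨ g * g = z) →
      finrank F ↥(LinearMap.ker (H392.KKL.rho chevE7 F g + 1) ⊓ LinearMap.ker (H392.KKL.rho chevE7 F z - 1)) =
        finrank F (adS a) + finrank F (adB B M)) :
    Num7 z B R (fun g => finrank F ↥(LinearMap.ker (H392.KKL.rho chevE7 F g + 1))) := by
  refine num7_of (H392.KKL.rho chevE7 F) (H167.Co3.two_ne ho) hzz hz ?_ ?_ hcz hR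
  · intro g hg hg1
    exact H167.Co3.inv_dim ho hg hg1
  · intro g hg h38
    have h1 := H167.Co3.four_dim ho hg hzz hz
    have h3 : H167.Co3.mL chevE7 g = 38 := h38
    rw [h3] at h1
    revert h1
    decide

end Cfsg.Agent.H921.Co3.Glue7
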