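import Cfsg.Agent.H921.Co3.Sim
import Cfsg.Agent.H627.Co3.E7I

/-!
# S1920, `E₇(q)`, GLUE7: the tables `t1`, `t2`, `t3` of `E7I` from the numbers (helper921)

* `E7R z B R ι` : the fields of `E7I` used here (relation `R`, the subgroup `ι : SL₂(F) → G`);
* `Num7 z B R m` : `m g` = dimension of the `(-1)`-eigenspace of `g` on the 133-dimensional module; its values on the
  involutions are 54, 64, 70; it is not 38 on the square roots of `z`; and its splitting `L = sl₂ + so₁₂ + L₋`;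
* `t1`, `t2`, `t3` : the fields.
-/

set_option autoImplicit false

namespace Cfsg.Agent.H921.Co3.Glue7

open Module
open Cfsg.Agent.H921.Co3.Sim
open Cfsg.Agent.H627.Co3 (Sym)

variable {G F V : Type*} [Group G] [Field F] [AddCommGroup V] [Module F V]

/-- the part of `E7I` which is used here -/
structure E7R (z : G) (B : LinearMap.BilinForm F V) (R : G → Matrix (Fin 2) (Fin 2) F → Module.End F V → Prop)
    (ι : Matrix.SpecialLinearGroup (Fin 2) F →* G) : Prop where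
  two : (2 : F) ≠ 0
  dim : finrank F V = 12
  symm : ∀ u v, B u v = B v u
  nd : ∀ u, (∀ v, B u v = 0) → u = 0
  ex : ∀ g, g * z = z * g → ∃ a M, R g a M
  cz : ∀ {g a M}, R g a M → g * z = z * g
  det : ∀ {g a M}, R g a M → a.det ≠ 0
  sim : ∀ {g a M}, R g a M → ∃ μ : F, μ ≠ 0 ∧ ∀ u v, B (M u) (M v) = μ * B u v
  mul : ∀ {g a M g' a' M'}, R g a M → R g' a' M' → R (g * g') (a * a') (M * M')
  uniq : ∀ {g a M a' M'}, R g a M → R g a' M' → (∃ c : F, a' = c • a) ∧ ∃ c : F, M' = c • M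
  scal : ∀ {g a M} {c d : F}, R g a M → c ≠ 0 → d ≠ 0 → R g (c • a) (d • M)
  ker : ∀ {g}, R g 1 1 → g = 1 ∨ g = z
  Rι : ∀ x, R (ι x) x 1
  ι_neg : ι (-1) = z
  z_ne : z ≠ 1

/-- the numbers -/
structure Num7 (z : G) (B : LinearMap.BilinForm F V) (R : G → Matrix (Fin 2) (Fin 2) F → Module.End F V → Prop)
    (m : G → ℕ) : Prop where
  /-- involutions -/
  two : ∀ g, g * g = 1 → g ≠ 1 → m g = 54 ∨ m g = 64 ∨ m g = 70
  /-- square roots of `z` -/
  four : ∀ g, g * g = z → m g ≠ 38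
  /-- involutions conjugate to `g z` -/
  f1 : ∀ {g a M}, R g a M → g * g = 1 → (∃ k, k * g * k⁻¹ = g * z) →
    m g = finrank F (adS a) + finrank F (adB B M) + 32
  /-- square roots of `z` -/
  f2 : ∀ {g a M}, R g a M → g * g = z → m g = finrank F (adS a) + finrank F (adB B M)

variable {z : G} {B : LinearMap.BilinForm F V} {R : G → Matrix (Fin 2) (Fin 2) F → Module.End F V → Prop}
  {ι : Matrix.SpecialLinearGroup (Fin 2) F →* G} {m : G → ℕ}

namespace E7R

theorem one (T : E7R z B R ι) : R 1 1 1 := by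
  have h := T.Rι 1
  rwa [map_one, Matrix.SpecialLinearGroup.coe_one] at h

theorem zz (T : E7R z B R ι) : z * z = 1 := by
  rw [← T.ι_neg, ← map_mul, neg_mul_neg, one_mul, map_one]

theorem Rz (T : E7R z B R ι) : R z (-1) 1 := by
  have h := T.Rι (-1)
  rwa [T.ι_neg, Matrix.SpecialLinearGroup.coe_neg, Matrix.SpecialLinearGroup.coe_one] at h

theorem exists_ne (T : E7R z B R ι) : ∃ u v, B u v ≠ 0 := by
  by_contra h
  push Not at h
  have h1 : ∀ u : V, u = 0 := fun u => T.nd u (h u)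
  have h2 : Subsingleton V := ⟨fun a b => by rw [h1 a, h1 b]⟩
  have h3 := T.dim
  rw [Module.finrank_zero_of_subsingleton] at h3
  omega

/-- the endomorphism is not zero -/
theorem ne_zero (T : E7R z B R ι) {g : G} {a : Matrix (Fin 2) (Fin 2) F} {M : Module.End F V} (h : R g a M) : M ≠ 0 := by
  rintro rfl
  obtain ⟨μ, hμ, h1⟩ := T.sim h
  obtain ⟨u, v, huv⟩ := T.exists_ne
  have h2 := h1 u v
  rw [LinearMap.zero_apply, LinearMap.zero_apply, map_zero] at h2
  exact (mul_ne_zero hμ huv) h2.symm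

theorem ne_zero' (T : E7R z B R ι) {g : G} {a : Matrix (Fin 2) (Fin 2) F} {M : Module.End F V} (h : R g a M) : a ≠ 0 := by
  rintro rfl
  apply T.det h
  rw [Matrix.det_fin_two]
  simp

/-- inverses -/
theorem inv (T : E7R z B R ι) {g : G} {a : Matrix (Fin 2) (Fin 2) F} {M : Module.End F V} (h : R g a M) :
    ∃ a' M', R g⁻¹ a' M' ∧ (∃ c : F, c ≠ 0 ∧ a * a' = c • 1) ∧ ∃ c : F, c ≠ 0 ∧ M * M' = c • 1 := by
  have hz : g⁻¹ * z = z * g⁻¹ := by
    have h1 := T.cz h
    calc g⁻¹ * z = g⁻¹ * (z * g) * g⁻¹ := by group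
      _ = g⁻¹ * (g * z) * g⁻¹ := by rw [h1]
      _ = z * g⁻¹ := by group
  obtain ⟨a', M', h'⟩ := T.ex _ hz
  refine ⟨a', M', h', ?_, ?_⟩
  · have h1 := T.mul h h'
    rw [mul_inv_cancel] at h1
    obtain ⟨⟨c, hc⟩, -⟩ := T.uniq T.one h1
    refine ⟨c, ?_, hc⟩
    rintro rfl
    rw [zero_smul] at hc
    exact T.ne_zero' h1 hc
  · have h1 := T.mul h h'
    rw [mul_inv_cancel] at h1
    obtain ⟨-, c, hc⟩ := T.uniq T.one h1
    refine ⟨c, ?_, hc⟩
    rintro rfl
    rw [zero_smul] at hc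
    exact T.ne_zero h1 hc

/-- an element acting trivially on `sl₂` centralises `SL₂(F)` modulo `z` -/
theorem conj_ι (T : E7R z B R ι) {n : G} {M : Module.End F V} (h : R n 1 M) (x : Matrix.SpecialLinearGroup (Fin 2) F) :
    n * ι x * n⁻¹ = ι x ∨ n * ι x * n⁻¹ = z * ι x := by
  obtain ⟨a', M', h', ⟨c, hc, hca⟩, d, hd, hdM⟩ := T.inv h
  rw [one_mul] at hca
  have h1 := T.mul (T.mul (T.mul h (T.Rι x)) h') (T.Rι x⁻¹)
  have e1 : (1 : Matrix (Fin 2) (Fin 2) F) * x * a' * ((x⁻¹ : Matrix.SpecialLinearGroup (Fin 2) F) :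
      Matrix (Fin 2) (Fin 2) F) = c • 1 := by
    rw [hca, one_mul, mul_smul_comm, mul_one, smul_mul_assoc, ← Matrix.SpecialLinearGroup.coe_mul, mul_inv_cancel,
      Matrix.SpecialLinearGroup.coe_one]
  have e2 : M * 1 * M' * (1 : Module.End F V) = d • 1 := by rw [mul_one, mul_one, hdM]
  rw [e1, e2] at h1
  have h3 := T.scal h1 (inv_ne_zero hc) (inv_ne_zero hd)
  rw [smul_smul, smul_smul, inv_mul_cancel₀ hc, inv_mul_cancel₀ hd, one_smul, one_smul] at h3
  have e3 : n * ι x * n⁻¹ = (n * ι x * n⁻¹ * ι x⁻¹) * ι x := by rw [map_inv, inv_mul_cancel_right]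
  rcases T.ker h3 with h4 | h4
  · left
    rw [e3, h4, one_mul]
  · right
    rw [e3, h4]

/-- it centralises the squares -/
theorem conj_sq (T : E7R z B R ι) {n : G} {M : Module.End F V} (h : R n 1 M) (x : Matrix.SpecialLinearGroup (Fin 2) F) :
    n * ι (x * x) * n⁻¹ = ι (x * x) := by
  have hzx : z * ι x = ι x * z := by
    rw [← T.ι_neg, ← map_mul, ← map_mul, neg_mul, one_mul, mul_neg, mul_one]
  have e : n * ι (x * x) * n⁻¹ = (n * ι x * n⁻¹) * (n * ι x * n⁻¹) := by rw [map_mul]; group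
  rcases T.conj_ι h x with h1 | h1
  · rw [e, h1, map_mul]
  · rw [e, h1, hzx, map_mul]
    calc ι x * z * (ι x * z) = ι x * (z * ι x) * z := by group
      _ = ι x * (ι x * z) * z := by rw [hzx]
      _ = ι x * ι x * (z * z) := by group
      _ = ι x * ι x := by rw [T.zz, mul_one]

end E7R

/-! ### transvections -/

/-- upper transvections -/
def up (t : F) : Matrix.SpecialLinearGroup (Fin 2) F := ⟨!![1, t; 0, 1], by simp [Matrix.det_fin_two]⟩

/-- lower transvections -/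
def lo (t : F) : Matrix.SpecialLinearGroup (Fin 2) F := ⟨!![1, 0; t, 1], by simp [Matrix.det_fin_two]⟩

theorem up_sq (h2 : (2 : F) ≠ 0) (t : F) : up t = up (t / 2) * up (t / 2) := by
  apply Subtype.ext
  rw [Matrix.SpecialLinearGroup.coe_mul]
  show !![1, t; 0, 1] = !![1, t / 2; 0, 1] * !![1, t / 2; 0, 1]
  rw [Matrix.mul_fin_two]
  ext i j
  fin_cases i <;> fin_cases j <;> simp
  field_simp
  ring

theorem lo_sq (h2 : (2 : F) ≠ 0) (t : F) : lo t = lo (t / 2) * lo (t / 2) := by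
  apply Subtype.ext
  rw [Matrix.SpecialLinearGroup.coe_mul]
  show !![1, 0; t, 1] = !![1, 0; t / 2, 1] * !![1, 0; t / 2, 1]
  rw [Matrix.mul_fin_two]
  ext i j
  fin_cases i <;> fin_cases j <;> simp
  field_simp
  ring

theorem three (x : Matrix.SpecialLinearGroup (Fin 2) F) (hc : x.1 1 0 ≠ 0) :
    x = up ((x.1 0 0 - 1) / x.1 1 0) * lo (x.1 1 0) * up ((x.1 1 1 - 1) / x.1 1 0) := by
  have hd := x.2
  rw [Matrix.det_fin_two] at hd
  apply Subtype.ext
  rw [Matrix.SpecialLinearGroup.coe_mul, Matrix.SpecialLinearGroup.coe_mul]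
  show x.1 = !![1, (x.1 0 0 - 1) / x.1 1 0; 0, 1] * !![1, 0; x.1 1 0, 1] * !![1, (x.1 1 1 - 1) / x.1 1 0; 0, 1]
  rw [Matrix.mul_fin_two, Matrix.mul_fin_two]
  ext i j
  fin_cases i <;> fin_cases j
  · show x.1 0 0 = (1 * 1 + (x.1 0 0 - 1) / x.1 1 0 * x.1 1 0) * 1 + (1 * 0 + (x.1 0 0 - 1) / x.1 1 0 * 1) * 0
    field_simp
    ring
  · show x.1 0 1 = (1 * 1 + (x.1 0 0 - 1) / x.1 1 0 * x.1 1 0) * ((x.1 1 1 - 1) / x.1 1 0) +
      (1 * 0 + (x.1 0 0 - 1) / x.1 1 0 * 1) * 1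
    field_simp
    linear_combination -hd
  · show x.1 1 0 = (0 * 1 + 1 * x.1 1 0) * 1 + (0 * 0 + 1 * 1) * 0
    ring
  · show x.1 1 1 = (0 * 1 + 1 * x.1 1 0) * ((x.1 1 1 - 1) / x.1 1 0) + (0 * 0 + 1 * 1) * 1
    field_simp
    ring

/-- the element of order four -/
def jj : Matrix.SpecialLinearGroup (Fin 2) F := ⟨!![0, 1; -1, 0], by simp [Matrix.det_fin_two]⟩

/-- the element anticommuting with it -/
def kk (a b : F) (h : a ^ 2 + b ^ 2 = -1) : Matrix.SpecialLinearGroup (Fin 2) F := ⟨!![a, b; b, -a], by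
  rw [Matrix.det_fin_two_of]
  linear_combination -h⟩

theorem jj_sq : (jj : Matrix.SpecialLinearGroup (Fin 2) F) * jj = -1 := by
  apply Subtype.ext
  rw [Matrix.SpecialLinearGroup.coe_mul]
  show !![0, 1; -1, 0] * !![0, 1; -1, 0] = -(1 : Matrix (Fin 2) (Fin 2) F)
  rw [Matrix.mul_fin_two]
  ext i j
  fin_cases i <;> fin_cases j <;> simp

theorem kk_jj (a b : F) (h : a ^ 2 + b ^ 2 = -1) : kk a b h * jj = -1 * (jj * kk a b h) := by
  apply Subtype.ext
  rw [Matrix.SpecialLinearGroup.coe_mul, Matrix.SpecialLinearGroup.coe_mul, Matrix.SpecialLinearGroup.coe_mul]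
  show !![a, b; b, -a] * !![0, 1; -1, 0] = -(1 : Matrix (Fin 2) (Fin 2) F) * (!![0, 1; -1, 0] * !![a, b; b, -a])
  rw [Matrix.mul_fin_two, Matrix.mul_fin_two, neg_mul, one_mul]
  ext i j
  fin_cases i <;> fin_cases j <;> simp

/-- sums of two squares -/
theorem exists_ab (F : Type*) [Field F] [Finite F] : ∃ a b : F, a ^ 2 + b ^ 2 = -1 ∧ b ≠ 0 := by
  obtain ⟨p, hp⟩ := CharP.exists F
  have hp0 : p ≠ 0 := CharP.char_ne_zero_of_finite F p
  have := NeZero.mk hp0
  obtain ⟨a, b, hab⟩ := CharP.sq_add_sq F p (-1)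
  rw [Int.cast_neg, Int.cast_one] at hab
  by_cases hb : (b : F) = 0
  · refine ⟨b, a, by rw [add_comm]; exact hab, fun ha => ?_⟩
    rw [ha, hb] at hab
    norm_num at hab
  · exact ⟨a, b, hab, hb⟩

/-! ### The fields -/

namespace E7R

/-- it centralises `SL₂(F)` exactly (elements with nonzero lower left entry) -/
theorem comm_ι (T : E7R z B R ι) {n : G} {M : Module.End F V} (h : R n 1 M) (x : Matrix.SpecialLinearGroup (Fin 2) F)
    (hx : x.1 1 0 ≠ 0) : n * ι x = ι x * n := by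
  have key : n * ι x * n⁻¹ = ι x := by
    have h1 : ∀ t, n * ι (up t) * n⁻¹ = ι (up t) := fun t => by
      have := T.conj_sq h (up (t / 2))
      rwa [← up_sq T.two] at this
    have h3 : ∀ t, n * ι (lo t) * n⁻¹ = ι (lo t) := fun t => by
      have := T.conj_sq h (lo (t / 2))
      rwa [← lo_sq T.two] at this
    rw [three x hx, map_mul, map_mul]
    calc n * (ι (up ((x.1 0 0 - 1) / x.1 1 0)) * ι (lo (x.1 1 0)) * ι (up ((x.1 1 1 - 1) / x.1 1 0))) * n⁻¹ =
        (n * ι (up ((x.1 0 0 - 1) / x.1 1 0)) * n⁻¹) * (n * ι (lo (x.1 1 0)) * n⁻¹) *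
          (n * ι (up ((x.1 1 1 - 1) / x.1 1 0)) * n⁻¹) := by group
      _ = _ := by rw [h1, h1, h3]
  calc n * ι x = (n * ι x * n⁻¹) * n := by group
    _ = ι x * n := by rw [key]

/-- `M²` for an element with `a = 1` -/
theorem sq_of {T : E7R z B R ι} {n : G} {a : Matrix (Fin 2) (Fin 2) F} {M : Module.End F V} (h : R n a M)
    (hn : n * n = 1 ∨ n * n = z) : ∃ l : F, l ≠ 0 ∧ M * M = l • 1 := by
  have h1 := T.mul h h
  have h3 : ∃ a', R (n * n) a' 1 := by
    rcases hn with hn | hn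
    · rw [hn]; exact ⟨_, T.one⟩
    · rw [hn]; exact ⟨_, T.Rz⟩
  obtain ⟨a', h3⟩ := h3
  obtain ⟨-, l, hl⟩ := T.uniq h3 h1
  refine ⟨l, ?_, hl⟩
  rintro rfl
  rw [zero_smul] at hl
  exact T.ne_zero h1 hl

end E7R

variable [FiniteDimensional F V]

/-- **the field `t1`** -/
theorem t1 (T : E7R z B R ι) (N : Num7 z B R m) {n : G} {M : Module.End F V} (h : R n 1 M) (hn : n * n = 1)
    (hk : ∃ k, k * n * k⁻¹ = n * z) : ∃ ν : F, ν ≠ 0 ∧ M * M = ν ^ 2 • 1 ∧ Sym B M ∧
    (finrank F (LinearMap.ker (M + ν • 1)) = 4 ∨ finrank F (LinearMap.ker (M + ν • 1)) = 8) := by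
  obtain ⟨l, hl, hM⟩ := E7R.sq_of (T := T) h (Or.inl hn)
  obtain ⟨μ, hμ, hs⟩ := T.sim h
  have hn1 : n ≠ 1 := by
    rintro rfl
    obtain ⟨k, hk⟩ := hk
    apply T.z_ne
    rw [mul_one, mul_inv_cancel, one_mul] at hk
    exact hk.symm
  have h1 := N.two n hn hn1
  have h3 := N.f1 h hn hk
  have h4 : finrank F (adS (1 : Matrix (Fin 2) (Fin 2) F)) = 0 := by
    have := finrank_adS_scalar T.two (one_ne_zero (α := F))
    rwa [one_smul] at this
  rw [h4, zero_add] at h3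
  refine t1_of T.two T.dim T.symm T.nd hl hM hs ?_
  -- the possible values
  rcases sa_or_sk hl hM hs T.nd with h5 | h5
  · by_cases hq : IsSquare l
    · obtain ⟨ν, rfl⟩ := hq
      have hν : ν ≠ 0 := fun h0 => hl (by rw [h0, mul_zero])
      rw [show ν * ν = ν ^ 2 from (pow_two ν).symm] at hM
      have h6 := finrank_adB_sq T.two T.symm T.nd hν hM h5
      rw [T.dim] at h6
      have h7 : finrank F (LinearMap.ker (M + ν • 1)) ≤ 12 := T.dim ▸ Submodule.finrank_le _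
      generalize finrank F (LinearMap.ker (M + ν • (1 : Module.End F V))) = k at h6 h7
      generalize finrank F (adB B M) = d at h3 h6 ⊢
      interval_cases k <;> omega
    · have h6 := finrank_adB_nonsq T.two T.symm T.nd hq hM h5
      rw [T.dim] at h6
      omega
  · have h6 := finrank_adB_skew T.two T.symm T.nd hl hM h5
    rw [T.dim] at h6
    omega

omit [FiniteDimensional F V] in
theorem adS_jj (h2 : (2 : F) ≠ 0) : finrank F (adS ((jj : Matrix.SpecialLinearGroup (Fin 2) F) :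
    Matrix (Fin 2) (Fin 2) F)) = 2 := by
  refine finrank_adS h2 (c := -1) ?_ (neg_ne_zero.2 one_ne_zero) ?_
  · rintro ⟨c, hc⟩
    have h := congrFun (congrFun hc 0) 1
    change (1 : F) = (c • (1 : Matrix (Fin 2) (Fin 2) F)) 0 1 at h
    rw [Matrix.smul_apply, Matrix.one_apply_ne (by decide), smul_zero] at h
    exact one_ne_zero h
  · rw [← Matrix.SpecialLinearGroup.coe_mul, jj_sq, Matrix.SpecialLinearGroup.coe_neg,
      Matrix.SpecialLinearGroup.coe_one, neg_smul, one_smul]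

/-- **the field `t2`** -/
theorem t2 [Finite F] (T : E7R z B R ι) (N : Num7 z B R m) {n : G} {M : Module.End F V} {ν : F} (h : R n 1 M)
    (hn : n * n = z) (hM : M * M = ν ^ 2 • 1) (hs : Sym B M) :
    finrank F (LinearMap.ker (M + ν • 1)) ≠ 4 ∧ finrank F (LinearMap.ker (M + ν • 1)) ≠ 8 := by
  have hν : ν ≠ 0 := by
    rintro rfl
    obtain ⟨l, hl, hl'⟩ := E7R.sq_of (T := T) h (Or.inr hn)
    apply T.ne_zero (T.mul h h)
    rw [hM, zero_pow two_ne_zero, zero_smul]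
  have hj : n * ι jj = ι jj * n := T.comm_ι h jj (by
    show (-1 : F) ≠ 0
    exact neg_ne_zero.2 one_ne_zero)
  have hjz : ι (jj : Matrix.SpecialLinearGroup (Fin 2) F) * ι jj = z := by rw [← map_mul, jj_sq, T.ι_neg]
  have h1 : (n * ι jj) * (n * ι jj) = 1 := by
    calc (n * ι jj) * (n * ι jj) = n * (ι jj * n) * ι jj := by group
      _ = n * (n * ι jj) * ι jj := by rw [hj]
      _ = (n * n) * (ι jj * ι jj) := by group
      _ = 1 := by rw [hn, hjz, T.zz]
  have hR := T.mul h (T.Rι jj)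
  rw [one_mul, mul_one] at hR
  have h3 : n * ι jj ≠ 1 := by
    intro h0
    rw [h0] at hR
    obtain ⟨⟨c, hc⟩, -⟩ := T.uniq T.one hR
    have h := congrFun (congrFun hc 0) 1
    change (1 : F) = (c • (1 : Matrix (Fin 2) (Fin 2) F)) 0 1 at h
    rw [Matrix.smul_apply, Matrix.one_apply_ne (by decide), smul_zero] at h
    exact one_ne_zero h
  obtain ⟨a, b, hab, hb⟩ := exists_ab F
  have hk : n * ι (kk a b hab) = ι (kk a b hab) * n := T.comm_ι h _ hb
  have h4 : ι (kk a b hab) * (n * ι jj) * (ι (kk a b hab))⁻¹ = n * ι jj * z := by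
    have e1 : ι (kk a b hab) * ι jj = z * (ι jj * ι (kk a b hab)) := by
      rw [← map_mul, kk_jj, map_mul, map_mul, ← T.ι_neg]
    have e2 : n * z = z * n := T.cz h
    have e3 : ι jj * z = z * ι jj := T.cz (T.Rι jj)
    calc ι (kk a b hab) * (n * ι jj) * (ι (kk a b hab))⁻¹ = (ι (kk a b hab) * n) * ι jj * (ι (kk a b hab))⁻¹ := by group
      _ = n * (ι (kk a b hab) * ι jj) * (ι (kk a b hab))⁻¹ := by rw [← hk]; group
      _ = n * z * ι jj := by rw [e1]; group
      _ = n * ι jj * z := by rw [mul_assoc, ← e3, mul_assoc]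
  have h5 := N.f1 hR h1 ⟨_, h4⟩
  rw [adS_jj T.two] at h5
  have h6 := N.two _ h1 h3
  refine t2_of T.two T.dim T.symm T.nd hν hM hs ?_
  omega

/-- **the field `t3`** -/
theorem t3 (T : E7R z B R ι) (N : Num7 z B R m) {n : G} {a : Matrix (Fin 2) (Fin 2) F} {M : Module.End F V} {l : F}
    (h : R n a M) (hn : n * n = z) (ha : ¬ ∃ c : F, a = c • 1) (hM : M * M = l • 1) (hs : Sym B M) : IsSquare l := by
  refine t3_of T.two T.dim T.symm T.nd hM hs ?_
  intro h36
  have h1 := N.f2 h hn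
  have h3 := T.mul h h
  rw [hn] at h3
  obtain ⟨⟨c, hc⟩, -⟩ := T.uniq T.Rz h3
  have hc0 : c ≠ 0 := by
    rintro rfl
    rw [zero_smul] at hc
    exact T.ne_zero' h3 hc
  have h4 := finrank_adS T.two ha (c := -c) (neg_ne_zero.2 hc0) (by rw [hc, smul_neg, neg_smul])
  rw [h4, h36] at h1
  exact N.four n hn h1

end Cfsg.Agent.H921.Co3.Glue7
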